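import Cfsg.Agent.H225.EX.LocU
import Cfsg.Agent.H119.EP.UThree
import Cfsg.Agent.H758.EPX.TK

/-!
# S5745, `E₇(2)`: the socle is not `U₃(3)³` (helper225)

* `sch_u33` : the Schreier property of `U₃(3)`;
* `u33_cube` : `EPS H N e`, `N ≅ U₃(3)³` : `|G| ≤ 2 ^ 105`;
* `e7q2_u33` : not in a group of order `|E₇(2)|`.
-/

set_option autoImplicit false
set_option linter.unusedSectionVars false

namespace Cfsg.Agent.H225.EX

open Subgroup Cfsg Cfsg.Agent.H284 Cfsg.Agent.H209.EPX Cfsg.Agent.H119.EP Cfsg.Agent.H758.EPX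
open Cfsg.Agent.Schreier.Basic (Sch)
open Cfsg.Agent.H273.EPU (LocK)

variable {T : Type} [Group T]

theorem u33_of {F : Type*} [Field F] [Fintype F] (hF : Fintype.card F = 3 ^ 2) (i : T ≃* PSU 3 F 3) : U33 T :=
  U33.of_equiv (i.trans (Lin.prEquiv hF).symm) (Lin.u33_su hF)

theorem card_aut_of {F : Type*} [Field F] [Fintype F] (hF : Fintype.card F = 3 ^ 2) (i : T ≃* PSU 3 F 3) :
    Nat.card (MulAut T) = 12096 := by
  rw [Nat.card_congr (MulAut.congr i).toEquiv, Lin.card_mulAut hF]

/-- the Schreier property, outer automorphism group of order 2 -/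
theorem sch_of_two [Finite T] (hs : IsSimpleGroup T) (hna : ∃ a b : T, a * b ≠ b * a)
    (hA : Nat.card (MulAut T) = 2 * Nat.card T) : Sch T := by
  intro C hC φ hφ
  have hn := Schreier.Basic.conj_range_normal T
  have hinj : Function.Injective (MulAut.conj : T →* MulAut T) := by
    rw [← MonoidHom.ker_eq_bot_iff]
    rcases (inferInstance : (MulAut.conj : T →* MulAut T).ker.Normal).eq_bot_or_eq_top with h | h
    · exact h
    · exfalso
      obtain ⟨a, b, hab⟩ := hna
      apply hab
      have h1 : a ∈ (MulAut.conj : T →* MulAut T).ker := by rw [h]; exact mem_top _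
      have h2 := DFunLike.congr_fun (MonoidHom.mem_ker.1 h1) b
      rw [MulAut.conj_apply, MulAut.one_apply, mul_inv_eq_iff_eq_mul] at h2
      exact h2
  have hr : Nat.card (MulAut.conj : T →* MulAut T).range = Nat.card T :=
    (Nat.card_congr (MonoidHom.ofInjective hinj).toEquiv).symm
  have hq : Nat.card (MulAut T ⧸ (MulAut.conj : T →* MulAut T).range) = 2 := by
    have h1 := (MulAut.conj : T →* MulAut T).range.card_mul_index
    rw [hr, hA, mul_comm] at h1
    exact Nat.eq_of_mul_eq_mul_right Nat.card_pos h1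
  have := Fact.mk Nat.prime_two
  have hcyc : IsCyclic (MulAut T ⧸ (MulAut.conj : T →* MulAut T).range) := isCyclic_of_prime_card (p := 2) hq
  have hsol : Group.IsSolvable (MulAut T ⧸ (MulAut.conj : T →* MulAut T).range) := by
    apply Group.isSolvable_of_comm
    intro a b
    obtain ⟨g, hg⟩ := hcyc.exists_generator
    obtain ⟨i, rfl⟩ := mem_zpowers_iff.1 (hg a)
    obtain ⟨j, rfl⟩ := mem_zpowers_iff.1 (hg b)
    rw [← zpow_add, ← zpow_add, add_comm]
  have h1 := Schreier.Basic.apply_eq_one_of_perfect (QuotientGroup.mk' (MulAut.conj : T →* MulAut T).range) hC hφ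
  exact (QuotientGroup.eq_one_iff φ).1 h1

theorem sch_u33 {F : Type*} [Field F] [Fintype F] (hF : Fintype.card F = 3 ^ 2) (i : T ≃* PSU 3 F 3)
    (hna : ∃ a b : T, a * b ≠ b * a) : Sch T := by
  have hU := u33_of hF i
  have := hU.finite
  exact sch_of_two hU.simple hna (by rw [card_aut_of hF i, hU.card])

variable {G : Type} [Group G] [Finite G] {H N : Subgroup G}

/-- **the bound for `U₃(3)³`** -/
theorem u33_cube {e : N ≃* (Fin 3 → T)} (h : EPS H N e) {F : Type*} [Field F] [Fintype F]
    (hF : Fintype.card F = 3 ^ 2) (i : T ≃* PSU 3 F 3) : Nat.card G ≤ 33155593939537466196787138658304 := by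
  have hU := u33_of hF i
  have hA := card_aut_of hF i
  have h1 := EPS.tk_five h (sch_u33 hF i h.nab) (by norm_num) (L := 592) (D := 1024192512) (ncard_locK hU)
    (by rw [hU.card]; norm_num) (by rw [hU.card]; norm_num)
  have h2 := EPS.card_H_le h
  rw [hA] at h1 h2
  refine h1.trans ((Nat.mul_le_mul_left _ h2).trans ?_)
  norm_num [Nat.factorial]

/-- **`E₇(2)`, `U₃(3)³`** -/
theorem e7q2_u33 (hG : Nat.card G = 7997476042075799759100487262680802918400)
    {e : N ≃* (Fin 3 → T)} (h : EPS H N e) {F : Type*} [Field F] [Fintype F] (hF : Fintype.card F = 3 ^ 2)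
    (i : T ≃* PSU 3 F 3) : False := by
  have h1 := u33_cube h hF i
  rw [hG] at h1
  norm_num at h1

end Cfsg.Agent.H225.EX
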