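import Cfsg.Agent.H119.EP.UExists
import Cfsg.Agent.H273.EPU.Soc

/-!
# S5745: `U₃(3)` has at most 592 subgroups in `LocK` (helper225)

`ncard_locK : U33 N → (LocK N \ {⊤}).ncard ≤ 592` : `K = N(O)` or `K = O` for an object `O` of helper119.
-/

set_option autoImplicit false
set_option linter.unusedSectionVars false

namespace Cfsg.Agent.H225.EX

open Subgroup Cfsg Cfsg.Agent.H119.EP
open Cfsg.Agent.Lib.Cores (pCore_normal pCore_isPGroup le_pCore pCore_characteristic)
open Cfsg.Agent.H273.EPU (LocK)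

variable {N : Type*} [Group N]

/-- a characteristic subgroup is normalised -/
theorem le_norm {K : Subgroup N} (Y : Subgroup K) (hY : Y.Normal) :
    K ≤ normalizer ((Y.map K.subtype : Subgroup N) : Set N) := by
  intro k hk
  rw [mem_normalizer_iff]
  intro y
  constructor
  · rintro ⟨z, hz, rfl⟩
    exact ⟨_, hY.conj_mem z hz ⟨k, hk⟩, rfl⟩
  · rintro ⟨z, hz, hzy⟩
    refine ⟨_, hY.conj_mem z hz ⟨k, hk⟩⁻¹, ?_⟩
    have h1 : (z : N) = k * y * k⁻¹ := hzy
    show k⁻¹ * (z : N) * (k⁻¹)⁻¹ = y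
    rw [h1]
    group

theorem eq_norm {K : Subgroup N} (hK : K ∈ LocK N) (Y : Subgroup K) (hY : Y.Characteristic) (h0 : Y ≠ ⊥) :
    normalizer ((Y.map K.subtype : Subgroup N) : Set N) = K :=
  le_antisymm (hK.2 Y hY h0) (le_norm Y inferInstance)

/-- `K` from its object -/
noncomputable def dec (O : Subgroup N) : Subgroup N := if Nat.card O = 168 then O else normalizer (O : Set N)

theorem dec_of {O K : Subgroup N} (h1 : Nat.card O ≠ 168) (h2 : normalizer (O : Set N) = K) : dec O = K := by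
  rw [dec, if_neg h1, h2]

variable (h : U33 N)

include h

/-- the nonsolvable members -/
theorem mem_KT (M : Subgroup N) (hM : M ≠ ⊥) (hM' : M ≠ ⊤) (h2 : pCore 2 M = ⊥) (h3 : pCore 3 M = ⊥)
    (h7 : pCore 7 M = ⊥) : M ∈ KT N := by
  have := h.finite
  have hnt : Nontrivial M := (nontrivial_iff_ne_bot M).2 hM
  have hns : ¬ Group.IsSolvable M := by
    intro hs
    obtain ⟨r, hr, hne⟩ := Cfsg.Agent.H479.GoodEight.exists_pCore hs
    have := Fact.mk hr
    have h4 : r ∣ 6048 := by
      obtain ⟨k, hk⟩ := IsPGroup.iff_card.1 (pCore_isPGroup (G := M) r)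
      have h5 : Nat.card (pCore r M) ∣ 6048 := (card_subgroup_dvd_card _).trans (h.card_dvd M)
      refine dvd_trans ?_ h5
      rw [hk]
      apply dvd_pow_self
      rintro rfl
      apply hne
      rw [← card_eq_one, hk, pow_zero]
    have h5 : r = 2 ∨ r = 3 ∨ r = 7 := by
      have e : (6048 : ℕ) = 2 ^ 5 * 3 ^ 3 * 7 := by norm_num
      rw [e, hr.dvd_mul, hr.dvd_mul] at h4
      rcases h4 with (h4 | h4) | h4
      · left; exact (Nat.prime_dvd_prime_iff_eq hr Nat.prime_two).1 (hr.dvd_of_dvd_pow h4)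
      · right; left; exact (Nat.prime_dvd_prime_iff_eq hr Nat.prime_three).1 (hr.dvd_of_dvd_pow h4)
      · right; right; exact (Nat.prime_dvd_prime_iff_eq hr (by norm_num)).1 h4
    rcases h5 with rfl | rfl | rfl
    · exact hne h2
    · exact hne h3
    · exact hne h7
  have hd7 : 7 ∣ Nat.card M := by
    by_contra hcon
    apply hns
    apply solvable_of_dvd
    have h4 : (Nat.card M).Coprime 7 := ((Nat.Prime.coprime_iff_not_dvd (by norm_num : Nat.Prime 7)).2 hcon).symm
    exact h4.dvd_of_dvd_mul_right (show Nat.card M ∣ 864 * 7 from h.card_dvd M)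
  obtain ⟨S⟩ : Nonempty (Sylow 7 M) := inferInstance
  have hS7 : Nat.card (S : Subgroup M) = 7 := sylow_card_seven hd7 (h.card_dvd M) S
  have hidx : Nat.card (Sylow 7 M) = (normalizer ((S : Subgroup M) : Set M)).index := S.card_eq_index_normalizer
  -- the normaliser of `S` does not have order 7
  have hnorm : Nat.card (normalizer ((S : Subgroup M) : Set M)) ≠ 7 := by
    intro h4
    have h5 : (S : Subgroup M) = normalizer ((S : Subgroup M) : Set M) :=
      eq_of_le_of_card_ge le_normalizer (by rw [h4, hS7])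
    have hcyc : IsCyclic (S : Subgroup M) := isCyclic_of_prime_card (p := 7) hS7
    have h6 : normalizer ((S : Subgroup M) : Set M) ≤ centralizer ((S : Subgroup M) : Set M) := by
      rw [← h5]
      intro x hx
      rw [mem_centralizer_iff]
      intro y hy
      obtain ⟨g, hg⟩ := hcyc.exists_generator
      obtain ⟨i, hi⟩ := mem_zpowers_iff.1 (hg ⟨x, hx⟩)
      obtain ⟨j, hj⟩ := mem_zpowers_iff.1 (hg ⟨y, hy⟩)
      have h8 : (⟨y, hy⟩ : (S : Subgroup M)) * ⟨x, hx⟩ = ⟨x, hx⟩ * ⟨y, hy⟩ := by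
        rw [← hi, ← hj, ← zpow_add, ← zpow_add, add_comm]
      exact congrArg Subtype.val h8
    have h8 := (MonoidHom.ker_transferSylow_isComplement' S h6).card_mul_card
    rw [show Nat.card (S : Subgroup M) = 7 from hS7] at h8
    set K := (MonoidHom.transferSylow S h6).ker with hK
    have h9 : Group.IsSolvable K := by
      apply solvable_of_dvd
      have h10 := h.card_dvd M
      rw [← h8] at h10
      exact Nat.dvd_of_mul_dvd_mul_right (by norm_num : 0 < 7) (show Nat.card K * 7 ∣ 864 * 7 from h10)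
    apply hns
    have h10 : Group.IsSolvable (M ⧸ K) := by
      have h11 : Nat.card (M ⧸ K) = 7 := by
        have h12 := K.card_mul_index
        rw [← h8] at h12
        exact Nat.eq_of_mul_eq_mul_left Nat.card_pos h12
      have h12 : IsCyclic (M ⧸ K) := isCyclic_of_prime_card (p := 7) h11
      apply Group.isSolvable_of_comm
      intro a b
      obtain ⟨g, hg⟩ := h12.exists_generator
      obtain ⟨i, rfl⟩ := mem_zpowers_iff.1 (hg a)
      obtain ⟨j, rfl⟩ := mem_zpowers_iff.1 (hg b)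
      rw [← zpow_add, ← zpow_add, add_comm]
    exact (Group.isSolvable_iff_subgroup_quotient K).2 ⟨h9, h10⟩
  -- it has order 21
  obtain ⟨P, hP, hPM⟩ : {P : Subgroup N | Nat.card P = 7 ∧ P ≤ M}.Nonempty := by
    refine ⟨(S : Subgroup M).map M.subtype, ?_, map_subtype_le _⟩
    rw [card_map_of_injective (subtype_injective M)]
    exact hS7
  have h4 := h.norm_inf M P hP hPM
  have h5 : Nat.card (normalizer ((S : Subgroup M) : Set M)) =
      Nat.card (normalizer (P : Set N) ⊓ M : Subgroup N) := by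
    have h6 := (normalizer ((S : Subgroup M) : Set M)).index_mul_card
    rw [← hidx, ← h4] at h6
    exact Nat.eq_of_mul_eq_mul_left Nat.card_pos h6
  have h6 : Nat.card (normalizer (P : Set N) ⊓ M : Subgroup N) ∣ 21 := by
    rw [← h.card_norm P hP]
    exact card_dvd_of_le inf_le_left
  have h8 : 7 ∣ Nat.card (normalizer (P : Set N) ⊓ M : Subgroup N) := by
    rw [← hP]
    exact card_dvd_of_le (le_inf le_normalizer hPM)
  have h9 : Nat.card (normalizer (P : Set N) ⊓ M : Subgroup N) = 21 := by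
    obtain ⟨c, hc⟩ := h8
    rw [hc] at h6
    have h10 : c ∣ 3 := Nat.dvd_of_mul_dvd_mul_left (by norm_num : 0 < 7) (show 7 * c ∣ 7 * 3 from h6)
    rcases (Nat.dvd_prime Nat.prime_three).1 h10 with rfl | rfl
    · exfalso
      apply hnorm
      rw [h5, hc]
    · rw [hc]
  rw [h9] at h4
  rcases num_seven hd7 (h.card_dvd M) with h10 | h10 | h10 | h10
  · exfalso
    rw [h10] at hidx
    have h11 : normalizer ((S : Subgroup M) : Set M) = ⊤ := index_eq_one.1 hidx.symm
    have h12 : (S : Subgroup M).Normal := normalizer_eq_top_iff.1 h11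
    have h13 := le_pCore h12 S.isPGroup'
    rw [h7, le_bot_iff] at h13
    rw [h13, card_bot] at hS7
    omega
  · refine ⟨?_, h10⟩
    rw [h10] at h4
    omega
  · exfalso
    rw [h10] at h4
    apply h.no_index_eight M
    have h11 := M.card_mul_index
    rw [h.card, ← h4] at h11
    omega
  · exfalso
    rw [h10] at h4
    apply hM'
    apply eq_top_of_card_eq
    rw [h.card, ← h4]


theorem loc_seven {K : Subgroup N} (hK : K ∈ LocK N) (h7 : pCore 7 K ≠ ⊥) : ∃ O ∈ Obj N, dec O = K := by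
  have := h.finite
  have hc : Nat.card ((pCore 7 K).map K.subtype) = 7 := by
    have h1 := h.card_dvd ((pCore 7 K).map K.subtype)
    rw [card_map_of_injective (subtype_injective K)] at h1 ⊢
    obtain ⟨k, hk⟩ := IsPGroup.iff_card.1 (pCore_isPGroup (G := K) 7)
    rw [hk] at h1 ⊢
    rcases k with _ | _ | k
    · exfalso
      apply h7
      rw [← card_eq_one, hk]
      rfl
    · rfl
    · exfalso
      have h3 : 7 ^ 2 ∣ 6048 := (pow_dvd_pow 7 (by omega : 2 ≤ k + 1 + 1)).trans h1
      revert h3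
      norm_num
  refine ⟨(pCore 7 K).map K.subtype, Or.inl (Or.inl (Or.inl (Or.inr hc))), dec_of (by omega) ?_⟩
  exact eq_norm hK _ (pCore_characteristic 7) h7

theorem loc_two {K : Subgroup N} (hK : K ∈ LocK N) (h2' : pCore 2 K ≠ ⊥) : ∃ O ∈ Obj N, dec O = K := by
  have := h.finite
  have h1 : ∀ v ∈ (Om K).map K.subtype, v * v = 1 := by
    rintro _ ⟨v, hv, rfl⟩
    exact congrArg Subtype.val hv.2.2
  have h2 := h.el _ h1
  refine ⟨(Om K).map K.subtype, ?_, dec_of (by omega) (eq_norm hK _ (Om_char K) (Om_ne h2'))⟩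
  have hp : IsPGroup 2 ((Om K).map K.subtype) := by
    intro v
    refine ⟨1, ?_⟩
    rw [pow_one, pow_two]
    exact Subtype.ext (h1 v v.2)
  obtain ⟨k, hk⟩ := IsPGroup.iff_card.1 hp
  have hne : (Om K).map K.subtype ≠ ⊥ := by
    intro e
    rw [map_eq_bot_iff_of_injective _ (subtype_injective K)] at e
    exact Om_ne h2' e
  have hk3 : k < 3 := by
    by_contra hcon
    have h3 : 2 ^ 3 ≤ 2 ^ k := Nat.pow_le_pow_right (by norm_num) (by omega)
    omega
  interval_cases k
  · exfalso
    apply hne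
    rw [← card_eq_one, hk]
    rfl
  · refine Or.inl (Or.inl (Or.inr ?_))
    exact hk
  · refine Or.inl (Or.inr ⟨hk, h1⟩)

theorem loc_three {K : Subgroup N} (hK : K ∈ LocK N) (h3 : pCore 3 K ≠ ⊥) : ∃ O ∈ Obj N, dec O = K := by
  have := h.finite
  have := Fact.mk Nat.prime_three
  have hRp : IsPGroup 3 ((pCore 3 K).map K.subtype) := (pCore_isPGroup (G := K) 3).map _
  obtain ⟨S, hS⟩ := hRp.exists_le_sylow
  have hN := eq_norm hK _ (pCore_characteristic (G := K) 3) h3
  have hRK : (pCore 3 K).map K.subtype ≤ K := map_subtype_le _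
  have hne : (pCore 3 K).map K.subtype ≠ ⊥ := by
    intro e
    rw [map_eq_bot_iff_of_injective _ (subtype_injective K)] at e
    exact h3 e
  have hmem : ∀ n (hn : n ∈ K), (⟨n, hn⟩ : K) ∈ pCore 3 K → n ∈ (pCore 3 K).map K.subtype :=
    fun n hn hx => ⟨_, hx, rfl⟩
  obtain ⟨x, hx, hx1⟩ : ∃ x ∈ (pCore 3 K).map K.subtype, x ≠ 1 := by
    by_contra hcon
    push Not at hcon
    exact hne ((eq_bot_iff_forall _).2 hcon)
  -- `K` normalises `S`
  have hKS : ∀ k ∈ K, ∀ s ∈ (S : Subgroup N), k * s * k⁻¹ ∈ (S : Subgroup N) := by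
    intro k hk s hs
    have h1 : IsPGroup 3 ((S : Subgroup N).map (MulAut.conj k).toMonoidHom) := S.isPGroup'.map _
    obtain ⟨T, hT⟩ := h1.exists_le_sylow
    have hk' := hk
    rw [← hN, mem_normalizer_iff] at hk'
    have h2 := (hk' x).1 hx
    have h4 : S = T := h.ti S T (k * x * k⁻¹) (by
      intro e
      apply hx1
      have : x = k⁻¹ * (k * x * k⁻¹) * k := by group
      rw [this, e]; group) (hS h2) (hT ⟨x, hS hx, rfl⟩)
    rw [h4]
    exact hT ⟨s, hs, rfl⟩
  -- `S ∩ K ≤ R`
  have hSK : (S : Subgroup N) ⊓ K ≤ (pCore 3 K).map K.subtype := by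
    rintro y ⟨hy1, hy2⟩
    have hn : ((S : Subgroup N).subgroupOf K).Normal := by
      constructor
      intro n hn g
      exact hKS g g.2 n hn
    have hp : IsPGroup 3 ((S : Subgroup N).subgroupOf K) := S.isPGroup'.comap_of_injective _ K.subtype_injective
    exact hmem y hy2 (le_pCore hn hp hy1)
  -- `R = S`
  have hRS : (pCore 3 K).map K.subtype = (S : Subgroup N) := by
    by_contra hcon
    have hlt : (pCore 3 K).map K.subtype < (S : Subgroup N) := lt_of_le_of_ne hS hcon
    have hnil : Group.IsNilpotent (S : Subgroup N) := S.isPGroup'.isNilpotent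
    have h1 : (((pCore 3 K).map K.subtype).subgroupOf (S : Subgroup N)) < ⊤ := by
      rw [lt_top_iff_ne_top, ne_eq, subgroupOf_eq_top]
      exact not_le_of_gt hlt
    have h2 := Group.normalizerCondition_of_isNilpotent (G := (S : Subgroup N)) _ h1
    obtain ⟨y, hy, hyn⟩ := SetLike.exists_of_lt h2
    apply hyn
    have h4 : (y : N) ∈ normalizer (((pCore 3 K).map K.subtype : Subgroup N) : Set N) := by
      rw [mem_normalizer_iff] at hy ⊢
      intro z
      constructor
      · intro hz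
        exact (hy ⟨z, hS hz⟩).1 hz
      · intro hz
        have h5 : (y : N)⁻¹ * ((y : N) * z * (y : N)⁻¹) * (y : N) ∈ (S : Subgroup N) :=
          (S : Subgroup N).mul_mem ((S : Subgroup N).mul_mem ((S : Subgroup N).inv_mem y.2) (hS hz)) y.2
        have h6 : (y : N)⁻¹ * ((y : N) * z * (y : N)⁻¹) * (y : N) = z := by group
        rw [h6] at h5
        exact (hy ⟨z, h5⟩).2 hz
    rw [hN] at h4
    exact hSK ⟨y.2, h4⟩
  refine ⟨S, Or.inl (Or.inl (Or.inl (Or.inl ⟨S, rfl⟩))), dec_of ?_ (by rw [← hRS]; exact hN)⟩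
  intro h168
  obtain ⟨k, hk⟩ := IsPGroup.iff_card.1 S.isPGroup'
  have h5 : 7 ∣ 3 ^ k := by
    rw [← hk]
    show 7 ∣ Nat.card (S : Subgroup N)
    rw [h168]; norm_num
  have h6 := (by norm_num : Nat.Prime 7).dvd_of_dvd_pow h5
  omega

theorem exists_dec {K : Subgroup N} (hK : K ∈ LocK N) (hK' : K ≠ ⊤) : ∃ O ∈ Obj N, dec O = K := by
  by_cases h2 : pCore 2 K = ⊥
  · by_cases h3 : pCore 3 K = ⊥
    · by_cases h7 : pCore 7 K = ⊥
      · have hkt := mem_KT h K hK.1 hK' h2 h3 h7
        exact ⟨K, Or.inr hkt, by rw [dec, if_pos hkt.1]⟩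
      · exact loc_seven h hK h7
    · exact loc_three h hK h3
  · exact loc_two h hK h2

/-- **at most 592 members of `LocK`** -/
theorem ncard_locK : (LocK N \ {⊤}).ncard ≤ 592 := by
  have := h.finite
  refine le_trans (Set.ncard_le_ncard (t := dec '' Obj N) ?_ (Set.toFinite _))
    ((Set.ncard_image_le (Set.toFinite _)).trans h.ncard_obj)
  rintro K ⟨hK, hK'⟩
  obtain ⟨O, hO, e⟩ := exists_dec h hK hK'
  exact ⟨O, hO, e⟩

end Cfsg.Agent.H225.EX
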