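import Cfsg.Agent.H225.EX.SmallKill
import Cfsg.Agent.H470.EPO.SmallT

/-!
# S5745, own characteristic, small socles of rank one: the bounds (helper470) as `Cnts` (helper225)
-/

set_option autoImplicit false

namespace Cfsg.Agent.H225.EX

/-- **the bounds** -/
theorem cnts (hg : Cfsg.Agent.H59.EP.TwoGen.{0}) : Cnts where
  a5 h _ _ _ hF f := (Cfsg.Agent.H470.EPO.Small.cPSL45 hg h hF f).trans_lt (by norm_num)
  a6 h _ _ _ hF f := (Cfsg.Agent.H470.EPO.Small.cPSL9 h hF f).trans (by norm_num)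
  u5 h _ _ _ hF f := (Cfsg.Agent.H470.EPO.Small.cU5 hg h hF f).trans_lt (by norm_num)

end Cfsg.Agent.H225.EX
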