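import Cfsg.Agent.H225.EX.E7UThree

/-!
# S5745: the socle `U₃(3)²` (helper225)

`u33_sq` : `EPS H N e`, `N ≅ U₃(3)²` : `|G| ≤ 2 ^ 67.6`; so not in `E₆(2)`, `²E₆(2)`.
-/

set_option autoImplicit false
set_option linter.unusedSectionVars false

namespace Cfsg.Agent.H225.EX

open Subgroup Cfsg Cfsg.Agent.H284 Cfsg.Agent.H209.EPX Cfsg.Agent.H119.EP Cfsg.Agent.H758.EPX

variable {T : Type} [Group T] {G : Type} [Group G] [Finite G] {H N : Subgroup G}

/-- **the bound for `U₃(3)²`** -/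
theorem u33_sq {e : N ≃* (Fin 2 → T)} (h : EPS H N e) {F : Type*} [Field F] [Fintype F]
    (hF : Fintype.card F = 3 ^ 2) (i : T ≃* PSU 3 F 3) : Nat.card G ≤ 215597886939897864192 := by
  have hU := u33_of hF i
  have hA := card_aut_of hF i
  have h1 := EPS.tk_two h (sch_u33 hF i h.nab) (L := 592) (D := 1016064) (ncard_locK hU)
    (by rw [hU.card]; norm_num) (by rw [hU.card]; norm_num)
  have h2 := EPS.card_H_le h
  rw [hA] at h1 h2
  refine h1.trans ((Nat.mul_le_mul_left _ h2).trans ?_)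
  norm_num [Nat.factorial]

/-- **`E₆(2)`, `U₃(3)²`** -/
theorem e6q2_u33_sq (hG : Nat.card G = 214841575522005575270400)
    {e : N ≃* (Fin 2 → T)} (h : EPS H N e) {F : Type*} [Field F] [Fintype F] (hF : Fintype.card F = 3 ^ 2)
    (i : T ≃* PSU 3 F 3) : False := by
  have h1 := u33_sq h hF i
  rw [hG] at h1
  norm_num at h1

/-- **`²E₆(2)`, `U₃(3)²`** -/
theorem te6q2_u33_sq (hG : Nat.card G = 76532479683774853939200)
    {e : N ≃* (Fin 2 → T)} (h : EPS H N e) {F : Type*} [Field F] [Fintype F] (hF : Fintype.card F = 3 ^ 2)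
    (i : T ≃* PSU 3 F 3) : False := by
  have h1 := u33_sq h hF i
  rw [hG] at h1
  norm_num at h1

end Cfsg.Agent.H225.EX
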